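import Mathlib

/-!
# Sylow subgroups inside a proper subgroup (Praeger's bound), elementary proof

If `K` is generated by `p`-elements and `H < K`, then `(2p-1) n_p(H) ≤ (p-1) n_p(K)`, where
both numbers count Sylow `p`-subgroups of an ambient group `G` contained in `H`, `K`.

Write `n` for the size of a conjugacy class of `T = pg H` and `f` for the number of members
containing a Sylow `P ≤ T`.  The deficit `(p-1)n - (2p-1)f` is divisible by `p`, and induction
on the `T`-orbits gives that it is at least `-p`.  If it is `-p`, all `T`-orbits have deficit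
zero, and a recursion shows that any `p` members of the class moved cyclically by a
`p`-element share a Sylow subgroup, which is impossible.
-/

set_option autoImplicit false

open Classical

namespace Cfsg.Agent.Praeger

variable {G : Type*} [Group G]

/-- Conjugate `g T g⁻¹`. -/
def cj (g : G) (T : Subgroup G) : Subgroup G := T.map (MulAut.conj g).toMonoidHom

lemma mem_cj {g x : G} {T : Subgroup G} : x ∈ cj g T ↔ g⁻¹ * x * g ∈ T := by
  constructor
  · rintro ⟨y, hy, rfl⟩
    simpa [mul_assoc] using hy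
  · intro h
    exact ⟨g⁻¹ * x * g, h, by simp [mul_assoc]⟩

lemma cj_one (T : Subgroup G) : cj 1 T = T := by
  ext x; simp [mem_cj]

lemma cj_mul (g h : G) (T : Subgroup G) : cj g (cj h T) = cj (g * h) T := by
  ext x; simp [mem_cj, mul_assoc]

lemma cj_inv_cj (g : G) (T : Subgroup G) : cj g⁻¹ (cj g T) = T := by
  rw [cj_mul, inv_mul_cancel, cj_one]

lemma cj_cj_inv (g : G) (T : Subgroup G) : cj g (cj g⁻¹ T) = T := by
  rw [cj_mul, mul_inv_cancel, cj_one]

lemma cj_mono (g : G) {S T : Subgroup G} (h : S ≤ T) : cj g S ≤ cj g T := Subgroup.map_mono h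

lemma cj_injective (g : G) : Function.Injective (cj g) :=
  Function.LeftInverse.injective (cj_inv_cj g)

lemma cj_le_cj {g : G} {S T : Subgroup G} : cj g S ≤ cj g T ↔ S ≤ T := by
  refine ⟨fun h => ?_, cj_mono g⟩
  have := cj_mono g⁻¹ h
  rwa [cj_inv_cj, cj_inv_cj] at this

lemma cj_inf (g : G) (S T : Subgroup G) : cj g (S ⊓ T) = cj g S ⊓ cj g T := by
  ext x; simp [mem_cj]

lemma cj_eq_self_of_mem {g : G} {T : Subgroup G} (hg : g ∈ T) : cj g T = T := by
  ext x
  rw [mem_cj]
  constructor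
  · intro h
    simpa [mul_assoc] using T.mul_mem (T.mul_mem hg h) (T.inv_mem hg)
  · intro h
    exact T.mul_mem (T.mul_mem (T.inv_mem hg) h) hg

lemma card_cj (g : G) (T : Subgroup G) : Nat.card (cj g T) = Nat.card T :=
  (Nat.card_congr (T.equivMapOfInjective _ (MulAut.conj g).injective).toEquiv).symm

lemma cj_le_of_mem {g : G} {S K : Subgroup G} (hg : g ∈ K) (h : S ≤ K) : cj g S ≤ K :=
  (cj_mono g h).trans (cj_eq_self_of_mem hg).le

lemma mem_normalizer_of_cj {g : G} {T : Subgroup G} (h : cj g T = T) :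
    g ∈ Subgroup.normalizer (T : Set G) :=
  Subgroup.mem_normalizer_iff_map_conj_eq.2 h

variable (p : ℕ)

/-- The subgroup generated by the `p`-elements of `H`. -/
def pg (H : Subgroup G) : Subgroup G :=
  Subgroup.closure {x : G | x ∈ H ∧ ∃ k : ℕ, orderOf x = p ^ k}

lemma pg_le (H : Subgroup G) : pg p H ≤ H :=
  (Subgroup.closure_le _).2 fun _ hx => hx.1

lemma mem_pg {H : Subgroup G} {x : G} (hx : x ∈ H) (hp : ∃ k : ℕ, orderOf x = p ^ k) :
    x ∈ pg p H :=
  Subgroup.subset_closure ⟨hx, hp⟩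

lemma pg_mono {H K : Subgroup G} (h : H ≤ K) : pg p H ≤ pg p K :=
  Subgroup.closure_mono fun _ hx => ⟨h hx.1, hx.2⟩

lemma pg_pg (H : Subgroup G) : pg p (pg p H) = pg p H :=
  le_antisymm (pg_le p _) ((Subgroup.closure_le _).2 fun _ hx => mem_pg p (mem_pg p hx.1 hx.2) hx.2)

lemma cj_pg (g : G) (H : Subgroup G) : cj g (pg p H) = pg p (cj g H) := by
  have key : ∀ (g : G) (H : Subgroup G), cj g (pg p H) ≤ pg p (cj g H) := by
    intro g H
    rw [cj, Subgroup.map_le_iff_le_comap, pg, Subgroup.closure_le]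
    rintro x ⟨hx, k, hk⟩
    refine mem_pg p (Subgroup.mem_map_of_mem _ hx) ⟨k, ?_⟩
    rw [← hk]
    exact orderOf_injective (MulAut.conj g).toMonoidHom (MulAut.conj g).injective x
  refine le_antisymm (key g H) ?_
  have h2 := cj_mono g (key g⁻¹ (cj g H))
  rwa [cj_cj_inv, cj_inv_cj] at h2

/-- `T` is generated by its `p`-elements and contains a Sylow `p`-subgroup of `G`. -/
def Full (T : Subgroup G) : Prop := pg p T = T ∧ ∃ P : Sylow p G, (P : Subgroup G) ≤ T

lemma le_pg_of_le {H : Subgroup G} (P : Sylow p G) [Fact p.Prime] (h : (P : Subgroup G) ≤ H) :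
    (P : Subgroup G) ≤ pg p H := by
  intro x hx
  obtain ⟨k, hk⟩ := IsPGroup.iff_orderOf.1 P.isPGroup' ⟨x, hx⟩
  exact mem_pg p (h hx) ⟨k, by simpa using hk⟩

lemma full_pg {H : Subgroup G} (P : Sylow p G) [Fact p.Prime] (h : (P : Subgroup G) ≤ H) :
    Full p (pg p H) :=
  ⟨pg_pg p H, P, le_pg_of_le p P h⟩

variable [Finite G] [hp : Fact p.Prime]

lemma exists_cj_sylow {K : Subgroup G} (P Q : Sylow p G) (hP : (P : Subgroup G) ≤ K)
    (hQ : (Q : Subgroup G) ≤ K) : ∃ k ∈ K, (Q : Subgroup G) = cj k (P : Subgroup G) := by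
  obtain ⟨k, hk⟩ := MulAction.exists_smul_eq (↥K) (P.subtype hP) (Q.subtype hQ)
  refine ⟨k, k.2, ?_⟩
  have h := congrArg (fun S : Sylow p ↥K => (S : Subgroup ↥K).map K.subtype) hk
  simp only [Sylow.coe_subtype, Sylow.coe_subgroup_smul] at h
  rw [Subgroup.subgroupOf_map_subtype, inf_eq_left.2 hQ] at h
  rw [← h]
  ext x
  rw [mem_cj]
  constructor
  · rintro ⟨y, hy, rfl⟩
    rw [SetLike.mem_coe, Subgroup.mem_pointwise_smul_iff_inv_smul_mem] at hy
    simpa [Subgroup.mem_subgroupOf, mul_assoc] using hy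
  · intro hx
    have hxK : x ∈ K := by
      have := K.mul_mem (K.mul_mem k.2 (hP hx)) (K.inv_mem k.2)
      simpa [mul_assoc] using this
    refine ⟨⟨x, hxK⟩, ?_, rfl⟩
    rw [SetLike.mem_coe, Subgroup.mem_pointwise_smul_iff_inv_smul_mem]
    simpa [Subgroup.mem_subgroupOf, mul_assoc] using hx

/-- A `p`-element normalising a full subgroup lies in it. -/
lemma mem_of_cj_eq {T : Subgroup G} {P : Sylow p G} (hP : (P : Subgroup G) ≤ T) {x : G} {k : ℕ}
    (hx : x ^ p ^ k = 1) (h : cj x T = T) : x ∈ T := by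
  have hN := mem_normalizer_of_cj h
  have hndvd : ¬ p ∣ (T.subgroupOf (Subgroup.normalizer (T : Set G))).index := by
    intro hd
    apply P.not_dvd_index
    have hTN : T.relIndex (Subgroup.normalizer (T : Set G)) * (Subgroup.normalizer (T : Set G)).index = T.index :=
      Subgroup.relIndex_mul_index Subgroup.le_normalizer
    exact hd.trans (Dvd.dvd.trans ⟨_, hTN.symm⟩ (Subgroup.index_dvd_of_le hP))
  let q : (Subgroup.normalizer (T : Set G)) ⧸ (T.subgroupOf (Subgroup.normalizer (T : Set G))) := QuotientGroup.mk ⟨x, hN⟩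
  have h1 : q ^ p ^ k = 1 := by
    change QuotientGroup.mk ((⟨x, hN⟩ : (Subgroup.normalizer (T : Set G))) ^ p ^ k) = _
    rw [(Subtype.ext (by simpa using hx) : (⟨x, hN⟩ : (Subgroup.normalizer (T : Set G))) ^ p ^ k = 1)]
    rfl
  have h2 : orderOf q ∣ (T.subgroupOf (Subgroup.normalizer (T : Set G))).index := orderOf_dvd_natCard q
  have h3 : (p ^ k).Coprime (T.subgroupOf (Subgroup.normalizer (T : Set G))).index :=
    Nat.Coprime.pow_left k ((Nat.Prime.coprime_iff_not_dvd hp.out).2 hndvd)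
  have h4 : orderOf q = 1 :=
    Nat.eq_one_of_dvd_coprimes h3 (orderOf_dvd_of_pow_eq_one h1) h2
  rw [orderOf_eq_one_iff] at h4
  have h5 := (QuotientGroup.eq_one_iff _).1 h4
  simpa [Subgroup.mem_subgroupOf] using h5

lemma sylow_le_of_cj_eq {T : Subgroup G} (hT : Full p T) (P : Sylow p G)
    (h : ∀ x ∈ (P : Subgroup G), cj x T = T) : (P : Subgroup G) ≤ T := by
  intro x hx
  obtain ⟨P0, hP0⟩ := hT.2
  obtain ⟨k, hk⟩ := P.isPGroup' ⟨x, hx⟩
  exact mem_of_cj_eq p hP0 (k := k) (by simpa [Subtype.ext_iff] using hk) (h x hx)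

/-- A full subgroup `K` normalising a full subgroup `T` lies in it. -/
lemma full_le_of_cj_eq {K T : Subgroup G} (hK : pg p K = K) (hT : Full p T)
    (h : ∀ x ∈ K, cj x T = T) : K ≤ T := by
  rw [← hK, pg, Subgroup.closure_le]
  rintro x ⟨hx, k, hk⟩
  obtain ⟨P0, hP0⟩ := hT.2
  exact mem_of_cj_eq p hP0 (k := k) (by rw [← hk]; exact pow_orderOf_eq_one x) (h x hx)

noncomputable local instance instFintypeG : Fintype G := Fintype.ofFinite G

noncomputable local instance instFintypeSubgroupG : Fintype (Subgroup G) := Fintype.ofFinite _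

/-- The `K`-conjugates of `T`. -/
noncomputable def orb (K T : Subgroup G) : Finset (Subgroup G) :=
  Finset.univ.filter fun U => ∃ k ∈ K, cj k T = U

omit hp in
lemma mem_orb {K T U : Subgroup G} : U ∈ orb K T ↔ ∃ k ∈ K, cj k T = U := by simp [orb]

omit hp in
lemma self_mem_orb (K T : Subgroup G) : T ∈ orb K T := mem_orb.2 ⟨1, K.one_mem, cj_one T⟩

/-- `W` is stable under conjugation by `K`. -/
def Inv (K : Subgroup G) (W : Finset (Subgroup G)) : Prop := ∀ k ∈ K, ∀ U ∈ W, cj k U ∈ W

omit hp in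
lemma inv_orb (K T : Subgroup G) : Inv K (orb K T) := by
  intro k hk U hU
  obtain ⟨l, hl, rfl⟩ := mem_orb.1 hU
  exact mem_orb.2 ⟨k * l, K.mul_mem hk hl, (cj_mul k l T).symm⟩

omit hp in
lemma orb_subset {K T : Subgroup G} {W : Finset (Subgroup G)} (hW : Inv K W) (hT : T ∈ W) :
    orb K T ⊆ W := by
  intro U hU
  obtain ⟨k, hk, rfl⟩ := mem_orb.1 hU
  exact hW k hk T hT

omit hp in
lemma orb_eq_of_mem {K T U : Subgroup G} (hU : U ∈ orb K T) : orb K U = orb K T := by
  obtain ⟨l, hl, rfl⟩ := mem_orb.1 hU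
  ext V
  simp only [mem_orb]
  constructor
  · rintro ⟨k, hk, rfl⟩; exact ⟨k * l, K.mul_mem hk hl, (cj_mul k l T).symm⟩
  · rintro ⟨k, hk, rfl⟩
    exact ⟨k * l⁻¹, K.mul_mem hk (K.inv_mem hl), by rw [cj_mul, inv_mul_cancel_right]⟩

/-- Number of members of `W` containing `P`. -/
noncomputable def fixN (P : Sylow p G) (W : Finset (Subgroup G)) : ℕ :=
  (W.filter fun U => (P : Subgroup G) ≤ U).card

/-- The deficit `(p-1)|W| - (2p-1) fix`. -/
noncomputable def dlt (P : Sylow p G) (W : Finset (Subgroup G)) : ℤ :=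
  ((p : ℤ) - 1) * W.card - (2 * (p : ℤ) - 1) * fixN p P W

omit hp in
lemma dlt_add (P : Sylow p G) {U W : Finset (Subgroup G)} (h : U ⊆ W) :
    dlt p P W = dlt p P U + dlt p P (W \ U) := by
  have h1 : W.card = U.card + (W \ U).card := by
    rw [Finset.card_sdiff_of_subset h]; have := Finset.card_le_card h; omega
  have h2 : fixN p P W = fixN p P U + fixN p P (W \ U) := by
    unfold fixN
    rw [← Finset.card_union_of_disjoint (Finset.disjoint_filter_filter Finset.disjoint_sdiff),
      ← Finset.filter_union, Finset.union_sdiff_of_subset h]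
  unfold dlt; rw [h1, h2]; push_cast; ring

omit hp in
lemma fixN_conj {K : Subgroup G} {P Q : Sylow p G} {W : Finset (Subgroup G)} {k : G}
    (hk : k ∈ K) (hQ : (Q : Subgroup G) = cj k (P : Subgroup G)) (hW : Inv K W) :
    fixN p Q W = fixN p P W := by
  unfold fixN
  refine Finset.card_bij' (fun U _ => cj k⁻¹ U) (fun U _ => cj k U) ?_ ?_ ?_ ?_
  · intro U hU
    simp only [Finset.mem_filter] at hU ⊢
    refine ⟨hW _ (K.inv_mem hk) U hU.1, ?_⟩
    have := cj_mono k⁻¹ (hQ ▸ hU.2)
    rwa [cj_inv_cj] at this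
  · intro U hU
    simp only [Finset.mem_filter] at hU ⊢
    exact ⟨hW _ hk U hU.1, hQ ▸ cj_mono k hU.2⟩
  · intro U _; exact cj_cj_inv k U
  · intro U _; exact cj_inv_cj k U

lemma dlt_indep {K : Subgroup G} {P Q : Sylow p G} {W : Finset (Subgroup G)}
    (hP : (P : Subgroup G) ≤ K) (hQ : (Q : Subgroup G) ≤ K) (hW : Inv K W) :
    dlt p Q W = dlt p P W := by
  obtain ⟨k, hk, hkQ⟩ := exists_cj_sylow p P Q hP hQ
  unfold dlt; rw [fixN_conj p hk hkQ hW]

lemma card_modEq_fixN {K : Subgroup G} (P : Sylow p G) (hP : (P : Subgroup G) ≤ K)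
    {W : Finset (Subgroup G)} (hW : Inv K W) (hfull : ∀ U ∈ W, Full p U) :
    W.card ≡ fixN p P W [MOD p] := by
  letI : MulAction ↥(P : Subgroup G) ↥W :=
    { smul := fun q U => ⟨cj (q : G) U.1, hW _ (hP q.2) _ U.2⟩
      one_smul := fun U => Subtype.ext (cj_one U.1)
      mul_smul := fun q r U => Subtype.ext (cj_mul (q : G) (r : G) U.1).symm }
  have h := P.isPGroup'.card_modEq_card_fixedPoints (α := ↥W)
  have e : Nat.card (MulAction.fixedPoints ↥(P : Subgroup G) ↥W) = fixN p P W := by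
    rw [fixN]
    rw [← Nat.card_eq_finsetCard]
    refine Nat.card_congr
      { toFun := fun U => ⟨U.1.1, Finset.mem_filter.2 ⟨U.1.2, ?_⟩⟩
        invFun := fun U => ⟨⟨U.1, (Finset.mem_filter.1 U.2).1⟩, ?_⟩
        left_inv := fun U => rfl
        right_inv := fun U => rfl }
    · exact sylow_le_of_cj_eq p (hfull _ U.1.2) P fun x hx => congrArg Subtype.val (U.2 ⟨x, hx⟩)
    · intro q
      exact Subtype.ext (cj_eq_self_of_mem ((Finset.mem_filter.1 U.2).2 q.2))
  rw [e, Nat.card_eq_finsetCard] at h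
  exact h

lemma dvd_dlt {K : Subgroup G} (P : Sylow p G) (hP : (P : Subgroup G) ≤ K)
    {W : Finset (Subgroup G)} (hW : Inv K W) (hfull : ∀ U ∈ W, Full p U) :
    (p : ℤ) ∣ dlt p P W := by
  have h := Nat.modEq_iff_dvd.1 (card_modEq_fixN p P hP hW hfull)
  unfold dlt
  have e : ((p : ℤ) - 1) * W.card - (2 * (p : ℤ) - 1) * fixN p P W =
      (p : ℤ) * ((W.card : ℤ) - 2 * fixN p P W) + ((fixN p P W : ℤ) - W.card) := by ring
  rw [e]
  exact dvd_add (dvd_mul_right _ _) h

/-- The main inequality, as a property of `K`. -/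
def Bound (K : Subgroup G) : Prop :=
  ∀ T : Subgroup G, Full p T → T ≤ K → T ≠ K → ∀ P : Sylow p G, (P : Subgroup G) ≤ K →
    0 ≤ dlt p P (orb K T)

/-- A `K`-orbit with small deficit has a member meeting `K` in a full proper subgroup, with
no larger deficit. -/
lemma orbit_step {K : Subgroup G} (hKp : pg p K = K) (hK : Bound p K) {T1 : Subgroup G}
    (hfull : Full p T1) (hne : ¬ K ≤ T1) (P : Sylow p G) (hP : (P : Subgroup G) ≤ K) :
    0 ≤ dlt p P (orb K T1) ∧
      (dlt p P (orb K T1) < (p : ℤ) * ((p : ℤ) - 1) →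
        Full p (pg p (K ⊓ T1)) ∧ pg p (K ⊓ T1) ≠ K ∧
          dlt p P (orb K (pg p (K ⊓ T1))) ≤ dlt p P (orb K T1)) := by
  have hfullU : ∀ U ∈ orb K T1, Full p U := by
    intro U hU
    obtain ⟨k, hk, rfl⟩ := mem_orb.1 hU
    obtain ⟨Q, hQ⟩ := hfull.2
    refine ⟨by rw [← cj_pg, hfull.1], (MulAut.conj k) • Q, ?_⟩
    exact cj_mono k hQ
  set T2 := pg p (K ⊓ T1) with hT2
  have hT2K : T2 ≤ K := (pg_le p _).trans inf_le_left
  have hT2ne : T2 ≠ K := fun h => hne (h ▸ (pg_le p _).trans inf_le_right)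
  by_cases hf : fixN p P (orb K T1) = 0
  · have hdiv : p ∣ (orb K T1).card :=
      Nat.modEq_zero_iff_dvd.1
        (hf ▸ card_modEq_fixN p P hP (inv_orb K T1) hfullU)
    have hpos : 0 < (orb K T1).card := Finset.card_pos.2 ⟨T1, self_mem_orb K T1⟩
    have hle : p ≤ (orb K T1).card := Nat.le_of_dvd hpos hdiv
    have hp2 := hp.out.two_le
    have hd : dlt p P (orb K T1) = ((p : ℤ) - 1) * (orb K T1).card := by
      unfold dlt; rw [hf]; simp
    rw [hd]
    refine ⟨mul_nonneg (by omega) (by positivity), fun hlt => absurd hlt (not_lt.2 ?_)⟩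
    rw [mul_comm]
    exact mul_le_mul_of_nonneg_left (by exact_mod_cast hle) (by omega)
  · obtain ⟨U0, hU0⟩ := Finset.card_pos.1 (Nat.pos_of_ne_zero hf)
    obtain ⟨hU0mem, hPU0⟩ := Finset.mem_filter.1 hU0
    obtain ⟨k0, hk0, rfl⟩ := mem_orb.1 hU0mem
    have hcjT2 : ∀ k ∈ K, cj k T2 = pg p (K ⊓ cj k T1) := by
      intro k hk
      rw [hT2, cj_pg, cj_inf, cj_eq_self_of_mem hk]
    have hT2full : Full p T2 := by
      refine ⟨pg_pg p _, (MulAut.conj k0⁻¹) • P, ?_⟩
      have h1 : (P : Subgroup G) ≤ cj k0 T2 := by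
        rw [hcjT2 k0 hk0]; exact le_pg_of_le p P (le_inf hP hPU0)
      have h2 := cj_mono k0⁻¹ h1
      rw [cj_inv_cj] at h2
      exact h2
    have hnn := hK T2 hT2full hT2K hT2ne P hP
    have hmaps : ∀ U ∈ orb K T1, pg p (K ⊓ U) ∈ orb K T2 := by
      intro U hU
      obtain ⟨k, hk, rfl⟩ := mem_orb.1 hU
      exact mem_orb.2 ⟨k, hk, hcjT2 k hk⟩
    set m := ((orb K T1).filter fun U => pg p (K ⊓ U) = T2).card with hm
    have hfib : ∀ V ∈ orb K T2, ((orb K T1).filter fun U => pg p (K ⊓ U) = V).card = m := by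
      intro V hV
      obtain ⟨k, hk, rfl⟩ := mem_orb.1 hV
      refine Finset.card_bij' (fun U _ => cj k⁻¹ U) (fun U _ => cj k U) ?_ ?_ ?_ ?_
      · intro U hU
        simp only [Finset.mem_filter] at hU ⊢
        refine ⟨inv_orb K T1 _ (K.inv_mem hk) U hU.1, ?_⟩
        have := congrArg (cj k⁻¹) hU.2
        rwa [cj_inv_cj, cj_pg, cj_inf, cj_eq_self_of_mem (K.inv_mem hk)] at this
      · intro U hU
        simp only [Finset.mem_filter] at hU ⊢
        refine ⟨inv_orb K T1 _ hk U hU.1, ?_⟩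
        have := congrArg (cj k) hU.2
        rwa [cj_pg, cj_inf, cj_eq_self_of_mem hk] at this
      · intro U _; exact cj_cj_inv k U
      · intro U _; exact cj_inv_cj k U
    have hn : (orb K T1).card = (orb K T2).card * m := by
      rw [Finset.card_eq_sum_card_fiberwise hmaps, Finset.sum_congr rfl hfib]
      simp
    have hf2 : fixN p P (orb K T1) = fixN p P (orb K T2) * m := by
      have hiff : ∀ U : Subgroup G, (P : Subgroup G) ≤ U ↔ (P : Subgroup G) ≤ pg p (K ⊓ U) :=
        fun U => ⟨fun h => le_pg_of_le p P (le_inf hP h),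
          fun h => h.trans ((pg_le p _).trans inf_le_right)⟩
      unfold fixN
      rw [Finset.card_eq_sum_card_fiberwise (f := fun U => pg p (K ⊓ U))
        (t := (orb K T2).filter fun V => (P : Subgroup G) ≤ V)]
      · rw [Finset.sum_congr rfl (g := fun _ => m)]
        · simp
        · intro V hV
          simp only [Finset.mem_filter] at hV
          rw [← hfib V hV.1, Finset.filter_filter]
          congr 1
          refine Finset.filter_congr fun U _ => ⟨fun h => h.2, fun h => ⟨?_, h⟩⟩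
          rw [hiff, h]; exact hV.2
      · intro U hU
        simp only [Finset.coe_filter, Set.mem_setOf_eq] at hU ⊢
        exact ⟨hmaps U hU.1, (hiff U).1 hU.2⟩
    have hd : dlt p P (orb K T1) = dlt p P (orb K T2) * m := by
      unfold dlt; rw [hn, hf2]; push_cast; ring
    have hm1 : 1 ≤ m := Finset.card_pos.2
      ⟨T1, Finset.mem_filter.2 ⟨self_mem_orb K T1, rfl⟩⟩
    rw [hd]
    refine ⟨mul_nonneg hnn (by positivity), fun _ => ⟨hT2full, hT2ne, ?_⟩⟩
    exact le_mul_of_one_le_right hnn (by exact_mod_cast hm1)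

lemma dlt_nonneg_of_inv {K : Subgroup G} (hKp : pg p K = K) (hK : Bound p K) (P : Sylow p G)
    (hP : (P : Subgroup G) ≤ K) : ∀ W : Finset (Subgroup G), Inv K W →
      (∀ U ∈ W, Full p U ∧ ¬ K ≤ U) → 0 ≤ dlt p P W := by
  intro W
  induction W using Finset.strongInduction with
  | H W ih =>
    intro hW h
    rcases W.eq_empty_or_nonempty with rfl | ⟨U, hU⟩
    · simp [dlt, fixN]
    have hsub := orb_subset hW hU
    rw [dlt_add p P hsub]
    refine add_nonneg (orbit_step p hKp hK (h U hU).1 (h U hU).2 P hP).1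
      (ih _ (Finset.sdiff_ssubset hsub ⟨U, self_mem_orb K U⟩) ?_ ?_)
    · intro k hk V hV
      simp only [Finset.mem_sdiff] at hV ⊢
      refine ⟨hW k hk V hV.1, fun hmem => hV.2 ?_⟩
      have := inv_orb K U _ (K.inv_mem hk) _ hmem
      rwa [cj_inv_cj] at this
    · intro V hV; exact h V (Finset.mem_sdiff.1 hV).1

/-- Recursion: few targets of small deficit share a Sylow subgroup. -/
lemma exists_sylow_le_all : ∀ (d : ℕ) (q : ℕ) (K : Subgroup G) (S : Finset (Subgroup G)),
    S.card = d → Full p K → (∀ H : Subgroup G, H ≤ K → pg p H = H → Bound p H) →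
    q + d ≤ p - 1 →
    (∀ T ∈ S, Full p T ∧ T ≤ K ∧
      (T = K ∨ ∀ P : Sylow p G, (P : Subgroup G) ≤ K → dlt p P (orb K T) ≤ (p : ℤ) * q)) →
    ∃ R : Sylow p G, (R : Subgroup G) ≤ K ∧ ∀ T ∈ S, (R : Subgroup G) ≤ T := by
  intro d
  induction d using Nat.strongRecOn with
  | ind d ih =>
    intro q K S hd hKfull hB hq hS
    by_cases hall : ∀ T ∈ S, T = K
    · obtain ⟨R, hR⟩ := hKfull.2
      exact ⟨R, hR, fun T hT => by rw [hall T hT]; exact hR⟩
    push Not at hall
    obtain ⟨T', hT', hT'ne⟩ := hall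
    obtain ⟨T0, hT0, hmax⟩ := Finset.exists_max_image (S.filter fun T => T ≠ K)
      (fun T => Nat.card T) ⟨T', Finset.mem_filter.2 ⟨hT', hT'ne⟩⟩
    obtain ⟨hT0S, hT0ne⟩ := Finset.mem_filter.1 hT0
    obtain ⟨hT0full, hT0K, hT0d⟩ := hS T0 hT0S
    have hcard : (S.erase T0).card + 1 = d := by rw [Finset.card_erase_add_one hT0S, hd]
    have hcardle : ((S.erase T0).image fun T => pg p (T0 ⊓ T)).card < d := by
      have := (Finset.card_image_le (s := S.erase T0) (f := fun T => pg p (T0 ⊓ T)))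
      omega
    obtain ⟨R, hR0, hR⟩ := ih _ hcardle (q + 1) T0 _ rfl hT0full
      (fun H hH => hB H (hH.trans hT0K))
      (by omega) (by
        intro T2 hT2
        obtain ⟨T, hT, rfl⟩ := Finset.mem_image.1 hT2
        obtain ⟨hTne0, hTS⟩ := Finset.mem_erase.1 hT
        obtain ⟨hTfull, hTK, hTd⟩ := hS T hTS
        by_cases hle : T0 ≤ T
        · have e : pg p (T0 ⊓ T) = T0 := by rw [inf_eq_left.2 hle, hT0full.1]
          rw [e]; exact ⟨hT0full, le_rfl, Or.inl rfl⟩
        have hTneK : T ≠ K := fun h => hle (h ▸ hT0K)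
        have hTd' := hTd.resolve_left hTneK
        -- deficit of the `T0`-orbit of `T` inside the `K`-orbit of `T`
        have key : ∀ P : Sylow p G, (P : Subgroup G) ≤ T0 →
            dlt p P (orb T0 T) ≤ (p : ℤ) * (q + 1) := by
          intro P hP
          have hB0 := hB T0 hT0K hT0full.1
          have hfullW : ∀ U ∈ orb K T, Full p U := by
            intro U hU
            obtain ⟨k, hk, rfl⟩ := mem_orb.1 hU
            obtain ⟨Q, hQ⟩ := hTfull.2
            exact ⟨by rw [← cj_pg, hTfull.1], (MulAut.conj k) • Q, cj_mono k hQ⟩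
          set F := (orb K T).filter fun U => T0 ≤ U with hF
          have hFcard : F.card ≤ 1 := by
            refine Finset.card_le_one.2 fun U hU V hV => ?_
            have aux : ∀ U ∈ F, T0 = U := by
              intro U hU
              obtain ⟨hUW, hUle⟩ := Finset.mem_filter.1 hU
              refine Subgroup.eq_of_le_of_card_ge hUle ?_
              obtain ⟨k, -, rfl⟩ := mem_orb.1 hUW
              rw [card_cj]
              exact hmax T (Finset.mem_filter.2 ⟨hTS, hTneK⟩)
            rw [← aux U hU, aux V hV]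
          have hFsub : F ⊆ orb K T := Finset.filter_subset _ _
          have hWinv : Inv T0 (orb K T) := fun k hk => inv_orb K T k (hT0K hk)
          have hrest : Inv T0 (orb K T \ F) := by
            intro k hk V hV
            simp only [hF, Finset.mem_sdiff, Finset.mem_filter, not_and] at hV ⊢
            refine ⟨hWinv k hk V hV.1, fun _ hle' => hV.2 hV.1 ?_⟩
            have := cj_mono k⁻¹ hle'
            rwa [cj_inv_cj, cj_eq_self_of_mem (T0.inv_mem hk)] at this
          have hsub : orb T0 T ⊆ orb K T \ F :=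
            orb_subset hrest (Finset.mem_sdiff.2
              ⟨self_mem_orb K T, fun h => hle (Finset.mem_filter.1 h).2⟩)
          have h1 := hTd' P (hP.trans hT0K)
          have h2 := dlt_add p P hFsub
          have h3 := dlt_add p P hsub
          have h4 : 0 ≤ dlt p P ((orb K T \ F) \ orb T0 T) := by
            refine dlt_nonneg_of_inv p hT0full.1 hB0 P hP _ ?_ ?_
            · intro k hk V hV
              simp only [Finset.mem_sdiff] at hV ⊢
              refine ⟨Finset.mem_sdiff.1 (hrest k hk V (Finset.mem_sdiff.2 hV.1)),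
                fun hmem => hV.2 ?_⟩
              have := inv_orb T0 T _ (T0.inv_mem hk) _ hmem
              rwa [cj_inv_cj] at this
            · intro V hV
              simp only [hF, Finset.mem_sdiff, Finset.mem_filter, not_and] at hV
              exact ⟨hfullW V hV.1.1, hV.1.2 hV.1.1⟩
          have h5 : -(p : ℤ) ≤ dlt p P F := by
            have e : fixN p P F = F.card := by
              rw [fixN, Finset.filter_true_of_mem]
              exact fun U hU => hP.trans (Finset.mem_filter.1 hU).2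
            have hc : (F.card : ℤ) ≤ 1 := by exact_mod_cast hFcard
            unfold dlt; rw [e]
            nlinarith [hp.out.two_le]
          push_cast
          linarith
        obtain ⟨P, hP⟩ := hT0full.2
        have hq2 : q + 2 ≤ p - 1 := by
          have : 0 < (S.erase T0).card := Finset.card_pos.2 ⟨T, Finset.mem_erase.2 ⟨hTne0, hTS⟩⟩
          omega
        have step : ∀ P : Sylow p G, (P : Subgroup G) ≤ T0 →
            Full p (pg p (T0 ⊓ T)) ∧ pg p (T0 ⊓ T) ≠ T0 ∧
              dlt p P (orb T0 (pg p (T0 ⊓ T))) ≤ dlt p P (orb T0 T) := by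
          intro P hP
          refine (orbit_step p hT0full.1 (hB T0 hT0K hT0full.1) hTfull hle P hP).2 ?_
          refine lt_of_le_of_lt (key P hP) ?_
          have hp0 : (0 : ℤ) < p := by exact_mod_cast hp.out.pos
          refine mul_lt_mul_of_pos_left ?_ hp0
          omega
        refine ⟨(step P hP).1, (pg_le p _).trans inf_le_left, Or.inr fun Q hQ => ?_⟩
        exact ((step Q hQ).2.2.trans (key Q hQ)).trans_eq (by push_cast; ring))
    refine ⟨R, hR0.trans hT0K, fun T hT => ?_⟩
    by_cases hTT : T = T0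
    · rw [hTT]; exact hR0
    exact (hR _ (Finset.mem_image_of_mem _ (Finset.mem_erase.2 ⟨hTT, hT⟩))).trans
      ((pg_le p _).trans inf_le_right)

/-- A cycle of `p` distinct subgroups under a `p`-element. -/
lemma exists_cycle {K T : Subgroup G} (hKp : pg p K = K) (hT : Full p T) (hTK : T ≤ K)
    (hne : T ≠ K) :
    ∃ y ∈ K, (∃ k : ℕ, y ^ p ^ k = 1) ∧ cj y T ≠ T ∧ cj (y ^ p) T = T := by
  have h0 : ∃ x ∈ K, (∃ k : ℕ, x ^ p ^ k = 1) ∧ cj x T ≠ T := by
    by_contra hcon
    push Not at hcon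
    apply hne
    refine le_antisymm hTK ?_
    obtain ⟨P0, hP0⟩ := hT.2
    rw [← hKp, pg, Subgroup.closure_le]
    rintro x ⟨hx, k, hk⟩
    have hxk : x ^ p ^ k = 1 := by rw [← hk]; exact pow_orderOf_eq_one x
    exact mem_of_cj_eq p hP0 hxk (hcon x hx ⟨k, hxk⟩)
  obtain ⟨x, hx, ⟨k, hk⟩, hxne⟩ := h0
  have hex : ∃ j : ℕ, cj (x ^ p ^ j) T = T := ⟨k, by rw [hk, cj_one]⟩
  obtain ⟨j, hj⟩ : ∃ j, Nat.find hex = j + 1 := by
    refine Nat.exists_eq_succ_of_ne_zero fun h => hxne ?_
    simpa [h] using Nat.find_spec hex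
  refine ⟨x ^ p ^ j, K.pow_mem hx _, ⟨k, ?_⟩, Nat.find_min hex (by omega), ?_⟩
  · rw [← pow_mul, mul_comm, pow_mul, hk, one_pow]
  · have := Nat.find_spec hex
    rw [hj, pow_succ, pow_mul] at this
    exact this

lemma bound_all : ∀ (n : ℕ) (K : Subgroup G), Nat.card K = n → pg p K = K → Bound p K := by
  intro n
  induction n using Nat.strongRecOn with
  | ind n ih =>
    intro K hn hKp T hT hTK hne P hP
    set W := orb K T with hW
    have hWfull : ∀ U ∈ W, Full p U := by
      intro U hU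
      obtain ⟨k, hk, rfl⟩ := mem_orb.1 hU
      obtain ⟨Q, hQ⟩ := hT.2
      exact ⟨by rw [← cj_pg, hT.1], (MulAut.conj k) • Q, cj_mono k hQ⟩
    obtain ⟨P0, hP0⟩ := hT.2
    rw [dlt_indep p (hP0.trans hTK) hP (inv_orb K T)]
    have hlt : Nat.card T < n :=
      hn ▸ lt_of_le_of_ne (Nat.le_of_dvd Nat.card_pos (Subgroup.card_dvd_of_le hTK))
        (fun h => hne (Subgroup.eq_of_le_of_card_ge hTK h.ge))
    have hB : ∀ H : Subgroup G, H ≤ T → pg p H = H → Bound p H := fun H hH hHp =>
      ih _ (lt_of_le_of_lt (Nat.le_of_dvd Nat.card_pos (Subgroup.card_dvd_of_le hH)) hlt) H rfl hHp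
    have hBT := hB T le_rfl hT.1
    have honly : ∀ U ∈ W, T ≤ U → T = U := by
      intro U hU hle
      obtain ⟨k, -, rfl⟩ := mem_orb.1 hU
      exact Subgroup.eq_of_le_of_card_ge hle (by rw [card_cj])
    have hTW : T ∈ W := self_mem_orb K T
    have hinvR : Inv T (W.erase T) := by
      intro k hk U hU
      obtain ⟨hUne, hU⟩ := Finset.mem_erase.1 hU
      refine Finset.mem_erase.2 ⟨fun h => hUne ?_, inv_orb K T k (hTK hk) U hU⟩
      apply cj_injective k
      rw [h, cj_eq_self_of_mem hk]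
    have hR : ∀ Q : Sylow p G, (Q : Subgroup G) ≤ T →
        0 ≤ dlt p Q (W.erase T) ∧ dlt p Q W = dlt p Q (W.erase T) - p := by
      intro Q hQ
      refine ⟨dlt_nonneg_of_inv p hT.1 hBT Q hQ _ hinvR fun U hU =>
        ⟨hWfull U (Finset.mem_of_mem_erase hU), fun hle =>
          Finset.ne_of_mem_erase hU (honly U (Finset.mem_of_mem_erase hU) hle).symm⟩, ?_⟩
      have e : W.erase T = W \ {T} := Finset.erase_eq W T
      have e2 : dlt p Q {T} = -(p : ℤ) := by
        simp [dlt, fixN, Finset.filter_singleton, hQ]; ring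
      rw [dlt_add p Q (Finset.singleton_subset_iff.2 hTW), e2, e]; ring
    by_contra hneg
    push Not at hneg
    have hdiv := dvd_dlt p P0 (hP0.trans hTK) (inv_orb K T) hWfull
    have heq : dlt p P0 W = -(p : ℤ) := by
      obtain ⟨c, hc⟩ := hdiv
      have h1 := hR P0 hP0
      have hp0 : (0 : ℤ) < p := by exact_mod_cast hp.out.pos
      have hc1 : c < 0 := by nlinarith
      have hc2 : -1 ≤ c := by nlinarith [h1.1, h1.2]
      have : c = -1 := by omega
      rw [hc, this]; ring
    have hzero : ∀ Q : Sylow p G, (Q : Subgroup G) ≤ T → dlt p Q (W.erase T) = 0 := by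
      intro Q hQ
      have h1 := (hR Q hQ).2
      rw [dlt_indep p (hP0.trans hTK) (hQ.trans hTK) (inv_orb K T), heq] at h1
      linarith
    obtain ⟨y, hyK, ⟨k, hk⟩, hyne, hyp⟩ := exists_cycle p hKp hT hTK hne
    set O := ((Finset.range p).image fun i => cj (y ^ i) T) with hO
    have hOmem : ∀ U ∈ O, U ∈ W := by
      intro U hU
      obtain ⟨i, -, rfl⟩ := Finset.mem_image.1 hU
      exact mem_orb.2 ⟨y ^ i, K.pow_mem hyK i, rfl⟩
    have hTO : T ∈ O := Finset.mem_image.2 ⟨0, Finset.mem_range.2 hp.out.pos, by simp [cj_one]⟩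
    have hOcard : (O.erase T).card + 1 ≤ p := by
      rw [Finset.card_erase_add_one hTO]
      exact Finset.card_image_le.trans (Finset.card_range p).le
    have hstep : ∀ U ∈ O.erase T, ∀ Q : Sylow p G, (Q : Subgroup G) ≤ T →
        Full p (pg p (T ⊓ U)) ∧ pg p (T ⊓ U) ≠ T ∧ dlt p Q (orb T (pg p (T ⊓ U))) ≤ 0 := by
      intro U hU Q hQ
      have hUW : U ∈ W.erase T :=
        Finset.mem_erase.2 ⟨Finset.ne_of_mem_erase hU, hOmem U (Finset.mem_of_mem_erase hU)⟩
      have hnle : ∀ V ∈ W.erase T, ¬ T ≤ V := fun V hV hle =>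
        Finset.ne_of_mem_erase hV (honly V (Finset.mem_of_mem_erase hV) hle).symm
      have hsub := orb_subset hinvR hUW
      have h1 := dlt_add p Q hsub
      have h2 : 0 ≤ dlt p Q (W.erase T \ orb T U) := by
        refine dlt_nonneg_of_inv p hT.1 hBT Q hQ _ ?_ fun V hV =>
          ⟨hWfull V (Finset.mem_of_mem_erase (Finset.mem_sdiff.1 hV).1),
            hnle V (Finset.mem_sdiff.1 hV).1⟩
        intro a ha V hV
        obtain ⟨hV1, hV2⟩ := Finset.mem_sdiff.1 hV
        refine Finset.mem_sdiff.2 ⟨hinvR a ha V hV1, fun hmem => hV2 ?_⟩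
        have := inv_orb T U _ (T.inv_mem ha) _ hmem
        rwa [cj_inv_cj] at this
      have h3 : dlt p Q (orb T U) ≤ 0 := by linarith [hzero Q hQ]
      obtain ⟨s1, s2, s3⟩ := (orbit_step p hT.1 hBT
        (hWfull U (Finset.mem_of_mem_erase hUW)) (hnle U hUW) Q hQ).2 (lt_of_le_of_lt h3 (by
          have := hp.out.two_le
          exact mul_pos (by omega) (by omega)))
      exact ⟨s1, s2, s3.trans h3⟩
    obtain ⟨R, hRT, hR'⟩ := exists_sylow_le_all p _ 0 T
      ((O.erase T).image fun U => pg p (T ⊓ U)) rfl hT hB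
      (by
        have := (Finset.card_image_le (s := O.erase T) (f := fun U => pg p (T ⊓ U)))
        omega)
      (by
        intro T2 hT2
        obtain ⟨U, hU, rfl⟩ := Finset.mem_image.1 hT2
        exact ⟨(hstep U hU P0 hP0).1, (pg_le p _).trans inf_le_left,
          Or.inr fun Q hQ => (hstep U hU Q hQ).2.2.trans_eq (by simp)⟩)
    -- the intersection of the cycle
    set I : Subgroup G := ⨅ i : ℕ, cj (y ^ i) T with hI
    have hmod : ∀ i : ℕ, cj (y ^ i) T = cj (y ^ (i % p)) T := by
      intro i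
      have hpow : ∀ j : ℕ, cj ((y ^ p) ^ j) T = T := by
        intro j
        induction j with
        | zero => simp [cj_one]
        | succ j ihj => rw [pow_succ, ← cj_mul, hyp, ihj]
      conv_lhs => rw [← Nat.mod_add_div i p, pow_add, pow_mul, ← cj_mul, hpow]
    have hRI : (R : Subgroup G) ≤ I := by
      refine le_iInf fun i => ?_
      rw [hmod i]
      by_cases h : cj (y ^ (i % p)) T = T
      · rw [h]; exact hRT
      · refine (hR' _ (Finset.mem_image_of_mem _ (Finset.mem_erase.2 ⟨h, ?_⟩))).trans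
          ((pg_le p _).trans inf_le_right)
        exact Finset.mem_image.2 ⟨i % p, Finset.mem_range.2 (Nat.mod_lt _ hp.out.pos), rfl⟩
    have hyI : cj y I = I := by
      have hle : cj y I ≤ I := by
        refine le_iInf fun i => ?_
        have h1 : cj y I ≤ cj y (cj (y ^ (i + (p - 1))) T) := cj_mono y (iInf_le _ _)
        rw [cj_mul, ← pow_succ'] at h1
        refine h1.trans (le_of_eq ?_)
        rw [hmod, hmod i]
        congr 2
        have : i + (p - 1) + 1 = i + p := by have := hp.out.pos; omega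
        rw [this, Nat.add_mod_right]
      exact Subgroup.eq_of_le_of_card_ge hle (by rw [card_cj])
    have hyI' : y ∈ I := mem_of_cj_eq p hRI hk hyI
    apply hyne
    exact cj_eq_self_of_mem (by simpa [cj_one] using (iInf_le (fun i : ℕ => cj (y ^ i) T) 0) hyI')

/-- Number of Sylow subgroups of `G` inside `H`. -/
noncomputable def sCount (H : Subgroup G) : ℕ :=
  (Finset.univ.filter fun Q : Sylow p G => (Q : Subgroup G) ≤ H).card

/-- **Praeger's bound.** -/
theorem sCount_le {K H : Subgroup G} (hKp : pg p K = K) (hHK : H ≤ K) (hne : H ≠ K) :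
    (2 * p - 1) * sCount p H ≤ (p - 1) * sCount p K := by
  by_cases hz : sCount p H = 0
  · simp [hz]
  obtain ⟨P, hP⟩ := Finset.card_pos.1 (Nat.pos_of_ne_zero hz)
  have hPH := (Finset.mem_filter.1 hP).2
  set T := pg p H with hT
  have hTfull : Full p T := full_pg p P hPH
  have hTK : T ≤ K := (pg_le p H).trans hHK
  have hTne : T ≠ K := fun h => hne (le_antisymm hHK (h ▸ pg_le p H))
  have hST : sCount p T = sCount p H := by
    unfold sCount
    congr 1
    exact Finset.filter_congr fun Q _ =>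
      ⟨fun h => h.trans (pg_le p H), fun h => le_pg_of_le p Q h⟩
  have hB := bound_all p _ K rfl hKp T hTfull hTK hTne P (hPH.trans hHK)
  set W := orb K T with hW
  set SK := Finset.univ.filter fun Q : Sylow p G => (Q : Subgroup G) ≤ K with hSK
  have hdc := Finset.sum_card_bipartiteAbove_eq_sum_card_bipartiteBelow
    (r := fun (U : Subgroup G) (Q : Sylow p G) => (Q : Subgroup G) ≤ U) (s := W) (t := SK)
  have hl : ∀ U ∈ W, (SK.bipartiteAbove
      (fun (U : Subgroup G) (Q : Sylow p G) => (Q : Subgroup G) ≤ U) U).card = sCount p T := by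
    intro U hU
    obtain ⟨k, hk, rfl⟩ := mem_orb.1 hU
    refine Finset.card_bij' (fun Q _ => (MulAut.conj k⁻¹) • Q) (fun Q _ => (MulAut.conj k) • Q)
      ?_ ?_ ?_ ?_
    · intro Q hQ
      simp only [Finset.mem_bipartiteAbove, Finset.mem_filter, Finset.mem_univ, true_and, hSK]
        at hQ ⊢
      have := cj_mono k⁻¹ hQ.2
      rw [cj_inv_cj] at this
      exact this
    · intro Q hQ
      simp only [Finset.mem_bipartiteAbove, Finset.mem_filter, Finset.mem_univ, true_and, hSK]
        at hQ ⊢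
      exact ⟨cj_le_of_mem hk (hQ.trans hTK), cj_mono k hQ⟩
    · intro Q _; simp [map_inv]
    · intro Q _; simp [map_inv]
  have hr : ∀ Q ∈ SK, (W.bipartiteBelow
      (fun (U : Subgroup G) (Q : Sylow p G) => (Q : Subgroup G) ≤ U) Q).card = fixN p P W := by
    intro Q hQ
    obtain ⟨k, hk, hkQ⟩ := exists_cj_sylow p P Q (hPH.trans hHK) (Finset.mem_filter.1 hQ).2
    exact fixN_conj p hk hkQ (inv_orb K T)
  rw [Finset.sum_congr rfl hl, Finset.sum_congr rfl hr, Finset.sum_const, Finset.sum_const,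
    smul_eq_mul, smul_eq_mul] at hdc
  have hpos : 0 < W.card := Finset.card_pos.2 ⟨T, self_mem_orb K T⟩
  rw [← hST]
  have hp2 := hp.out.two_le
  have hB' : (2 * p - 1) * fixN p P W ≤ (p - 1) * W.card := by
    unfold dlt at hB
    zify [show 1 ≤ p by omega, show 1 ≤ 2 * p by omega]
    linarith
  refine Nat.le_of_mul_le_mul_left ?_ hpos
  calc W.card * ((2 * p - 1) * sCount p T) = (2 * p - 1) * (W.card * sCount p T) := by ring
    _ = (2 * p - 1) * (SK.card * fixN p P W) := by rw [hdc]
    _ = SK.card * ((2 * p - 1) * fixN p P W) := by ring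
    _ ≤ SK.card * ((p - 1) * W.card) := Nat.mul_le_mul_left _ hB'
    _ = W.card * ((p - 1) * sCount p K) := by rw [sCount]; ring

end Cfsg.Agent.Praeger
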